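import Cfsg.Agent.H932.Regroup
import Cfsg.Agent.H925.OrthNot
import Cfsg.Agent.H925.OrthPlane2
import Cfsg.Agent.H925.OrthPlane3
import Cfsg.Agent.H926.Sub1
import Cfsg.Agent.H926.Sub2
import Cfsg.Agent.H924.TensorTwo

/-!
Common lemmas for the maximal subgroups of the twelve-dimensional orthogonal groups (H932).
-/

set_option autoImplicit false
set_option linter.unusedSectionVars false

namespace Cfsg.Agent.H932

open Cfsg Cfsg.Geo Module
open QuadraticMap hiding proj
open Cfsg.Agent.LieClassical.OrthCore Cfsg.Agent.LieClassical.OrthTrans Cfsg.Agent.LieClassical.OrthFinite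
open Cfsg.Agent.H919 (HermForm)
open Cfsg.Agent.H925 Cfsg.Agent.H922
open Cfsg.Agent.H912 (pt tens form_pt)
open scoped Matrix MatrixGroups

variable {ι : Type} [Fintype ι] [DecidableEq ι] {F : Type*} [Field F] {Q : (ι → F) → F}

/-- **q = 2**: the stabiliser of a plane of plus type fixes a nonsingular vector. -/
theorem plus_plane_two [Fintype F] (hF : Fintype.card F = 2) (hQ : IsNondegenerateQuadraticForm Q)
    {W : Submodule F (ι → F)} (hW : IsNondegenerateOn (polar Q) W) (hd : finrank F W = 2)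
    (hp : IsPlusTypeOn Q W) {H : Subgroup (GL ι F)} (hH : H ≤ isometryGroup F Q) (hHW : H ≤ subspaceStabilizer W) :
    ∃ v, Q v ≠ 0 ∧ H ≤ subspaceStabilizer (Submodule.span F {v}) := by
  obtain ⟨x, hx, y, hy, hQx, hQy, hxy, hspan, hval⟩ := exists_hyp_of_plus hQ hW hd hp
  have huniq : ∀ v ∈ W, Q v = 1 → v = x + y := by
    intro v hv hQv
    obtain ⟨a, b, rfl⟩ := hspan v hv
    rw [hval] at hQv
    rcases eq_zero_or_one hF a with rfl | rfl
    · rw [zero_mul] at hQv; exact absurd hQv zero_ne_one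
    · rcases eq_zero_or_one hF b with rfl | rfl
      · rw [mul_zero] at hQv; exact absurd hQv zero_ne_one
      · rw [one_smul, one_smul]
  have hQv : Q (x + y) = 1 := by
    have := hval 1 1
    rwa [one_smul, one_smul, one_mul] at this
  refine ⟨x + y, by rw [hQv]; exact one_ne_zero, ?_⟩
  intro g hg
  apply mem_subspaceStabilizer_of_forall
  intro v hv
  obtain ⟨c, rfl⟩ := Submodule.mem_span_singleton.1 hv
  rw [Matrix.mulVec_smul]
  have h1 : (g : Matrix ι ι F) *ᵥ (x + y) = x + y := by
    apply huniq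
    · exact (hHW hg _).1 (W.add_mem hx hy)
    · rw [mem_iso_iff.1 (hH hg), hQv]
  rw [h1]
  exact hv

theorem two_eq_zero_of_not_odd [Fintype F] (h : ¬ Odd (Fintype.card F)) : (2 : F) = 0 :=
  Cfsg.Agent.H926.card_even_iff_two_eq_zero.1 h

theorem odd_of_two_ne_zero [Fintype F] (h : (2 : F) ≠ 0) : Odd (Fintype.card F) := by
  by_contra hc
  exact h (two_eq_zero_of_not_odd hc)

theorem not_odd_of_two_eq_zero [Fintype F] (h : (2 : F) = 0) : ¬ Odd (Fintype.card F) := by
  intro hc
  exact two_ne_zero_of_odd_card hc h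

/-- in characteristic two nondegenerate subspaces are even-dimensional -/
theorem even_of_two (hQ : IsNondegenerateQuadraticForm Q) (h2 : (2 : F) = 0) {W : Submodule F (ι → F)}
    (hW : IsNondegenerateOn (polar Q) W) : Even (finrank F W) := by
  apply Cfsg.Agent.H926.even_on hQ.polar_bilinear W _ hW
  intro v _
  rw [polar_self hQ, h2, zero_mul]

/-- a tensor decomposition with alternating first factor and singular pure tensors forces plus type -/
theorem plus_of_pure {n₁ n₂ : ℕ} (hn₁ : n₁ = 2) {e : ι ≃ Fin n₁ × Fin n₂} {P : GL ι F}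
    (hpure : ∀ (v : Fin n₁ → F) (w : Fin n₂ → F),
      Q ((P : Matrix ι ι F) *ᵥ ((fun a : Fin n₁ × Fin n₂ => v a.1 * w a.2) ∘ e)) = 0) : IsPlusTypeOn Q ⊤ := by
  subst hn₁
  have hsw : ∀ v : Fin 2 → F, v ≠ 0 → Function.Injective (Cfsg.Agent.H914.pureL
      (e.trans (Equiv.prodComm (Fin 2) (Fin n₂))) P v) := fun v hv => Cfsg.Agent.H914.pureL_injective _ P hv
  set φ := Cfsg.Agent.H914.pureL (e.trans (Equiv.prodComm (Fin 2) (Fin n₂))) P (Pi.single 0 (1 : F)) with hφ
  have hv : (Pi.single 0 (1 : F) : Fin 2 → F) ≠ 0 := by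
    intro h
    have := congrFun h 0
    simp at this
  refine ⟨LinearMap.range φ, le_top, ?_, ?_⟩
  · rintro _ ⟨w, rfl⟩
    have h1 := hpure (Pi.single 0 1) w
    rw [← h1, hφ, Cfsg.Agent.H914.pureL_apply]
    congr 2
    funext i
    simp only [Function.comp, pt, Equiv.trans_apply, Equiv.prodComm_apply, Prod.fst_swap, Prod.snd_swap]
    ring
  · rw [LinearMap.finrank_range_of_inj (hsw _ hv), finrank_top, Module.finrank_fintype_fun_eq_card,
      Module.finrank_fintype_fun_eq_card, Fintype.card_fin, Fintype.card_congr e, Fintype.card_prod, Fintype.card_fin,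
      Fintype.card_fin]

/-- the subfield in a subfield structure is proper -/
theorem ne_top_of_card [Fintype F] {F₀ : Subfield F} {r : ℕ} (hr : r.Prime) (h : Fintype.card F = Nat.card F₀ ^ r) :
    F₀ ≠ ⊤ := by
  rintro rfl
  have h1 : Nat.card (⊤ : Subfield F) = Fintype.card F := by
    rw [← Nat.card_eq_fintype_card]
    exact Nat.card_congr Subfield.topEquiv.toEquiv
  rw [h1] at h
  have h2 : 1 < Fintype.card F := Fintype.one_lt_card
  have h3 : Fintype.card F ^ 1 < Fintype.card F ^ r := Nat.pow_lt_pow_right h2 hr.one_lt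
  rw [pow_one] at h3
  omega

end Cfsg.Agent.H932
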