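import Cfsg.Agent.H932.TwelveIrr
import Cfsg.Agent.H922.OddPerp
import Cfsg.Agent.H922.MaxSubfield
import Cfsg.Agent.H926.MinusB

/-!
Maximal subgroups of `Ω₁₂⁺(q)` (H932).
-/

set_option autoImplicit false
set_option linter.unusedSectionVars false

namespace Cfsg.Agent.H932

open Cfsg Cfsg.Geo Module
open QuadraticMap hiding proj
open Cfsg.Agent.LieClassical.OrthCore Cfsg.Agent.LieClassical.OrthTrans Cfsg.Agent.LieClassical.OrthFinite
open Cfsg.Agent.H919 (HermForm)
open Cfsg.Agent.H925 Cfsg.Agent.H922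
open scoped Matrix MatrixGroups

variable {F : Type*} [Field F] [Fintype F]

/-- the conclusion of S5871 -/
def ConclP (Q : (Fin 12 → F) → F) (H : Subgroup (Matrix.GeneralLinearGroup (Fin 12) F)) : Prop :=
    (∃ W : Submodule F (Fin 12 → F), W ≠ ⊥ ∧ Cfsg.Geo.IsTotallySingularQuad Q W ∧ Module.finrank F W ≠ 5 ∧ H = Cfsg.Geo.subspaceStabilizer W ⊓ Cfsg.Geo.omegaGL Q) ∨
    (Odd (Fintype.card F) ∧ ∃ W : Submodule F (Fin 12 → F), W ≠ ⊥ ∧ W ≠ ⊤ ∧ Odd (Module.finrank F W) ∧ 2 * Module.finrank F W ≠ 12 ∧ Cfsg.Geo.IsNondegenerateOn (QuadraticMap.polar Q) W ∧ H = Cfsg.Geo.subspaceStabilizer W ⊓ Cfsg.Geo.omegaGL Q) ∨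
    (∃ W : Submodule F (Fin 12 → F), Module.finrank F W = 2 ∧ Cfsg.Geo.IsNondegenerateOn (QuadraticMap.polar Q) W ∧ ¬ Cfsg.Geo.IsPlusTypeOn Q W ∧ H = Cfsg.Geo.subspaceStabilizer W ⊓ Cfsg.Geo.omegaGL Q) ∨
    (4 ≤ Fintype.card F ∧ ∃ W : Submodule F (Fin 12 → F), Module.finrank F W = 2 ∧ Cfsg.Geo.IsNondegenerateOn (QuadraticMap.polar Q) W ∧ Cfsg.Geo.IsPlusTypeOn Q W ∧ H = Cfsg.Geo.subspaceStabilizer W ⊓ Cfsg.Geo.omegaGL Q) ∨
    (∃ W : Submodule F (Fin 12 → F), Module.finrank F W = 4 ∧ Cfsg.Geo.IsNondegenerateOn (QuadraticMap.polar Q) W ∧ H = Cfsg.Geo.subspaceStabilizer W ⊓ Cfsg.Geo.omegaGL Q) ∨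
    (¬ Odd (Fintype.card F) ∧ ∃ v : (Fin 12 → F), Q v ≠ 0 ∧ H = Cfsg.Geo.subspaceStabilizer (Submodule.span F {v}) ⊓ Cfsg.Geo.omegaGL Q) ∨
    ((∃ p : ℕ, p.Prime ∧ Odd p ∧ Fintype.card F = p) ∧ ∃ D : Fin 12 → Submodule F (Fin 12 → F), Cfsg.Geo.IsOrthogonalMDecomposition Q 1 D ∧ H = Cfsg.Geo.decompositionStabilizer D ⊓ Cfsg.Geo.omegaGL Q) ∨
    (7 ≤ Fintype.card F ∧ ∃ D : Fin 6 → Submodule F (Fin 12 → F), Cfsg.Geo.IsOrthogonalMDecomposition Q 2 D ∧ (∀ i, Cfsg.Geo.IsPlusTypeOn Q (D i)) ∧ H = Cfsg.Geo.decompositionStabilizer D ⊓ Cfsg.Geo.omegaGL Q) ∨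
    (Fintype.card F ≠ 3 ∧ ∃ D : Fin 6 → Submodule F (Fin 12 → F), Cfsg.Geo.IsOrthogonalMDecomposition Q 2 D ∧ (∀ i, ¬ Cfsg.Geo.IsPlusTypeOn Q (D i)) ∧ H = Cfsg.Geo.decompositionStabilizer D ⊓ Cfsg.Geo.omegaGL Q) ∨
    (Odd (Fintype.card F) ∧ 5 ≤ Fintype.card F ∧ ∃ D : Fin 4 → Submodule F (Fin 12 → F), Cfsg.Geo.IsOrthogonalMDecomposition Q 3 D ∧ H = Cfsg.Geo.decompositionStabilizer D ⊓ Cfsg.Geo.omegaGL Q) ∨
    (3 ≤ Fintype.card F ∧ ∃ D : Fin 3 → Submodule F (Fin 12 → F), Cfsg.Geo.IsOrthogonalMDecomposition Q 4 D ∧ H = Cfsg.Geo.decompositionStabilizer D ⊓ Cfsg.Geo.omegaGL Q) ∨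
    (∃ D : Fin 2 → Submodule F (Fin 12 → F), Cfsg.Geo.IsOrthogonalMDecomposition Q 6 D ∧ H = Cfsg.Geo.decompositionStabilizer D ⊓ Cfsg.Geo.omegaGL Q) ∨
    (∃ D : Fin 2 → Submodule F (Fin 12 → F), Cfsg.Geo.IsMDecomposition 6 D ∧ (∀ i, Cfsg.Geo.IsTotallySingularQuad Q (D i)) ∧ H = Cfsg.Geo.decompositionStabilizer D ⊓ Cfsg.Geo.omegaGL Q) ∨
    (∃ K : Subalgebra F (Matrix (Fin 12) (Fin 12) F), Cfsg.Geo.IsFieldSubalgebra 2 K ∧ H = Cfsg.Geo.subalgebraNormalizer K ⊓ Cfsg.Geo.omegaGL Q) ∨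
    (∃ K : Subalgebra F (Matrix (Fin 12) (Fin 12) F), Cfsg.Geo.IsFieldSubalgebra 3 K ∧ H = Cfsg.Geo.subalgebraNormalizer K ⊓ Cfsg.Geo.omegaGL Q) ∨
    (∃ K : Subalgebra F (Matrix (Fin 12) (Fin 12) F), Cfsg.Geo.IsFieldSubalgebra 2 K ∧ Cfsg.Geo.IsAdjointClosedFor (QuadraticMap.polar Q) K ∧ ¬ Cfsg.Geo.IsSelfAdjointFor (QuadraticMap.polar Q) K ∧ (∀ k ∈ K, ∃ c : F, ∀ v : (Fin 12 → F), Q (Matrix.mulVec k v) = c * Q v) ∧ H = Cfsg.Geo.subalgebraNormalizer K ⊓ Cfsg.Geo.omegaGL Q) ∨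
    (3 ≤ Fintype.card F ∧ ∃ (e : Fin 12 ≃ Fin 2 × Fin 6) (P : Matrix.GeneralLinearGroup (Fin 12) F) (f₁ : (Fin 2 → F) → (Fin 2 → F) → F) (f₂ : (Fin 6 → F) → (Fin 6 → F) → F), Cfsg.Geo.IsSymplecticForm f₁ ∧ Cfsg.Geo.IsSymplecticForm f₂ ∧ Cfsg.Geo.IsTensorFormStructure id (QuadraticMap.polar Q) f₁ f₂ e P ∧ (∀ (x₁ : Fin 2 → F) (x₂ : Fin 6 → F), Q (Matrix.mulVec (P : Matrix (Fin 12) (Fin 12) F) ((fun a : Fin 2 × Fin 6 => x₁ a.1 * x₂ a.2) ∘ e)) = 0) ∧ H = Cfsg.Geo.tensorProductSubgroup 2 6 e P ⊓ Cfsg.Geo.omegaGL Q) ∨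
    (∃ (F₀ : Subfield F) (r : ℕ) (P : Matrix.GeneralLinearGroup (Fin 12) F) (ζ : F), r.Prime ∧ Fintype.card F = Nat.card F₀ ^ r ∧ ζ ≠ 0 ∧ Cfsg.Geo.IsQuadFormRationalStructure (fun v : Fin 12 → F => ζ * Q v) F₀ P ∧ H = Cfsg.Geo.subfieldSubgroup F₀ P ⊓ Cfsg.Geo.omegaGL Q) ∨
    Cfsg.Geo.InOrthogonalResidualClass H

section

variable {Q : (Fin 12 → F) → F} {H : Subgroup (Matrix.GeneralLinearGroup (Fin 12) F)}

theorem hc12 : Fintype.card (Fin 12) = 12 := Fintype.card_fin 12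

theorem eq_sub (hQ : IsNondegenerateQuadraticForm Q) (hH : IsMaximalIn (omegaGL Q) H)
    {W : Submodule F (Fin 12 → F)} (h0 : W ≠ ⊥) (h1 : W ≠ ⊤) (h : H ≤ subspaceStabilizer W) :
    H = subspaceStabilizer W ⊓ omegaGL Q :=
  eq_inf_of_isMaximalIn hH h (omegaGL_not_le_subspaceStabilizer hQ (by rw [hc12]; norm_num) h0 h1)

theorem eq_dec (hQ : IsNondegenerateQuadraticForm Q) (hH : IsMaximalIn (omegaGL Q) H) {t m : ℕ}
    {D : Fin t → Submodule F (Fin 12 → F)} (hD : IsMDecomposition m D) (h : H ≤ decompositionStabilizer D) :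
    H = decompositionStabilizer D ⊓ omegaGL Q :=
  eq_inf_of_isMaximalIn hH h (omegaGL_not_le_decompositionStabilizer hQ (by rw [hc12]; norm_num) hD.two_le
    (fun i h0 => by
      have h1 := hD.finrank_eq i
      rw [h0, finrank_bot] at h1
      exact absurd h1 hD.pos.ne) hD.indep)

theorem eq_fld (hQ : IsNondegenerateQuadraticForm Q) (hH : IsMaximalIn (omegaGL Q) H) {r : ℕ} (hr : 2 ≤ r)
    {K : Subalgebra F (Matrix (Fin 12) (Fin 12) F)} (hK : IsFieldSubalgebra r K) (h : H ≤ subalgebraNormalizer K) :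
    H = subalgebraNormalizer K ⊓ omegaGL Q :=
  eq_inf_of_isMaximalIn hH h (omegaGL_not_le_subalgebraNormalizer hQ (by rw [hc12]; norm_num) hr hK)

theorem eq_sfd (hQ : IsNondegenerateQuadraticForm Q) (hH : IsMaximalIn (omegaGL Q) H) {F₀ : Subfield F} {r : ℕ}
    (hr : r.Prime) (hc : Fintype.card F = Nat.card F₀ ^ r) {P : GL (Fin 12) F} (h : H ≤ subfieldSubgroup F₀ P) :
    H = subfieldSubgroup F₀ P ⊓ omegaGL Q :=
  eq_inf_of_isMaximalIn hH h (omegaGL_not_le_subfieldSubgroup hQ (by rw [hc12]; norm_num) (ne_top_of_card hr hc) P)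

theorem ne_top_of_finrank {W : Submodule F (Fin 12 → F)} (h : finrank F W < 12) : W ≠ ⊤ := by
  rintro rfl
  rw [finrank_top, Module.finrank_fintype_fun_eq_card, hc12] at h
  omega

theorem ne_bot_of_finrank {W : Submodule F (Fin 12 → F)} (h : 0 < finrank F W) : W ≠ ⊥ := by
  rintro rfl
  rw [finrank_bot] at h
  omega

theorem cP_ts (hQ : IsNondegenerateQuadraticForm Q) (hplus : IsPlusTypeOn Q ⊤) (hH : IsMaximalIn (omegaGL Q) H)
    {W : Submodule F (Fin 12 → F)} (h0 : W ≠ ⊥) (hW : IsTotallySingularQuad Q W) (h : H ≤ subspaceStabilizer W) :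
    ConclP Q H := by
  left
  by_cases h5 : finrank F W = 5
  · obtain ⟨W₁, hle, hW₁, hd, h'⟩ := exists_stab_half hQ hplus hW (by rw [h5, hc12]) hH.1.le h
    rw [hc12] at hd
    exact ⟨W₁, ne_bot_of_finrank (by omega), hW₁, by omega,
      eq_sub hQ hH (ne_bot_of_finrank (by omega)) (ne_top_of_finrank (by omega)) h'⟩
  · have h1 := two_mul_finrank_le hQ hW
    rw [hc12] at h1
    exact ⟨W, h0, hW, h5, eq_sub hQ hH h0 (ne_top_of_finrank (by omega)) h⟩

theorem cP_nsv (hQ : IsNondegenerateQuadraticForm Q) (hH : IsMaximalIn (omegaGL Q) H)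
    (h2 : (2 : F) = 0) {v : Fin 12 → F} (hv : Q v ≠ 0) (h : H ≤ subspaceStabilizer (Submodule.span F {v})) :
    ConclP Q H := by
  iterate 5 right
  left
  have hv0 : v ≠ 0 := by
    rintro rfl
    exact hv (Q_zero hQ)
  have hf := finrank_span_singleton (K := F) hv0
  exact ⟨not_odd_of_two_eq_zero h2, v, hv,
    eq_sub hQ hH (ne_bot_of_finrank (by omega)) (ne_top_of_finrank (by omega)) h⟩

theorem cP_odd (hQ : IsNondegenerateQuadraticForm Q) (hH : IsMaximalIn (omegaGL Q) H) (h2 : (2 : F) ≠ 0)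
    {W : Submodule F (Fin 12 → F)} (hodd : Odd (finrank F W)) (hlt : finrank F W < 12)
    (hW : IsNondegenerateOn (polar Q) W) (h : H ≤ subspaceStabilizer W) : ConclP Q H := by
  right; left
  refine ⟨odd_of_two_ne_zero h2, W, ne_bot_of_finrank hodd.pos, ne_top_of_finrank hlt, hodd, ?_, hW,
    eq_sub hQ hH (ne_bot_of_finrank hodd.pos) (ne_top_of_finrank hlt) h⟩
  intro h3
  have h4 : finrank F W = 6 := by omega
  rw [h4] at hodd
  exact absurd hodd (by decide)

theorem cP_dec6 (hQ : IsNondegenerateQuadraticForm Q) (hH : IsMaximalIn (omegaGL Q) H)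
    {D : Fin 2 → Submodule F (Fin 12 → F)} (hD : IsOrthogonalMDecomposition Q 6 D)
    (h : H ≤ decompositionStabilizer D) : ConclP Q H := by
  iterate 11 right
  left
  exact ⟨D, hD, eq_dec hQ hH hD.decomp.decomp h⟩

/-- reducible maximal subgroups -/
theorem cP_red (hQ : IsNondegenerateQuadraticForm Q) (hplus : IsPlusTypeOn Q ⊤) (hH : IsMaximalIn (omegaGL Q) H)
    (hred : ¬ ActsIrreducibly (matrixSet H)) : ConclP Q H := by
  have hI : H ≤ isometryGroup F Q := hH.1.le.trans (H925.omegaGL_le_iso Q)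
  rcases reducible_cases hQ hI hred with ⟨W, h0, hW, h⟩ | ⟨W, h0, hW, hd, h⟩ | ⟨h2, v, hv, h⟩
  · exact cP_ts hQ hplus hH h0 hW h
  · rw [hc12] at hd
    have hpos : 0 < finrank F W := by
      rw [Nat.pos_iff_ne_zero]
      intro h3
      exact h0 (Submodule.finrank_eq_zero.1 h3)
    by_cases hodd : Odd (finrank F W)
    · by_cases h2 : (2 : F) = 0
      · exact absurd (even_of_two hQ h2 hW) (Nat.not_even_iff_odd.2 hodd)
      · exact cP_odd hQ hH h2 hodd (by omega) hW h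
    · rw [Nat.not_odd_iff_even] at hodd
      obtain ⟨k, hk⟩ := hodd
      have hk3 : k ≤ 3 := by omega
      have heq : H = subspaceStabilizer W ⊓ omegaGL Q := eq_sub hQ hH h0 (ne_top_of_finrank (by omega)) h
      interval_cases k
      · omega
      · -- planes
        have hd2 : finrank F W = 2 := by omega
        by_cases hp : IsPlusTypeOn Q W
        · by_cases h4 : 4 ≤ Fintype.card F
          · iterate 3 right
            left
            exact ⟨h4, W, hd2, hW, hp, heq⟩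
          · have h1 := Fintype.one_lt_card (α := F)
            have h23 : Fintype.card F = 2 ∨ Fintype.card F = 3 := by omega
            rcases h23 with hq | hq
            · obtain ⟨v, hv, hle⟩ := plus_plane_two hq hQ hW hd2 hp hI h
              have h20 : (2 : F) = 0 := by
                have := FiniteField.cast_card_eq_zero F
                rw [hq] at this
                exact_mod_cast this
              exact cP_nsv hQ hH h20 hv hle
            · obtain ⟨W', hd', hW', hle⟩ := plus_plane_le hq hQ hW hd2 hp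
              rw [hc12] at hd'
              have h20 : (2 : F) ≠ 0 := two_ne_zero_of_odd_card (by rw [hq]; decide)
              have hfr : finrank F W' = 11 := by omega
              exact cP_odd hQ hH h20 (by rw [hfr]; decide) (by omega) hW'
                (fun g hg => (hle ⟨h hg, hI hg⟩).1)
        · iterate 2 right
          left
          exact ⟨W, hd2, hW, hp, heq⟩
      · iterate 4 right
        left
        exact ⟨W, by omega, hW, heq⟩
      · have hd6 : finrank F W = 6 := by omega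
        have h1 := isOrthogonalMDecomposition_half hQ hplus hW (by rw [hc12]; omega) (by rw [hd6]; decide)
          (by rw [hc12]; norm_num)
        rw [hd6] at h1
        exact cP_dec6 hQ hH h1 (le_decompositionStabilizer_half hQ hI h)
  · exact cP_nsv hQ hH h2 hv h

theorem cP_sub (hQ : IsNondegenerateQuadraticForm Q) (hH : IsMaximalIn (omegaGL Q) H) {F₀ : Subfield F} {r : ℕ}
    {P : GL (Fin 12) F} {ζ : F} (hr : r.Prime) (hc : Fintype.card F = Nat.card F₀ ^ r) (hζ : ζ ≠ 0)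
    (hR : IsQuadFormRationalStructure (fun v => ζ * Q v) F₀ P) (h : H ≤ subfieldSubgroup F₀ P) : ConclP Q H := by
  iterate 17 right
  left
  exact ⟨F₀, r, P, ζ, hr, hc, hζ, hR, eq_sfd hQ hH hr hc h⟩

/-- frames of lines -/
theorem cP_frame (hQ : IsNondegenerateQuadraticForm Q) (hH : IsMaximalIn (omegaGL Q) H)
    {D : Fin 12 → Submodule F (Fin 12 → F)} (hD : IsOrthogonalMDecomposition Q 1 D)
    (h : H ≤ decompositionStabilizer D) : ConclP Q H := by
  have hI : H ≤ isometryGroup F Q := hH.1.le.trans (H925.omegaGL_le_iso Q)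
  have h2 : (2 : F) ≠ 0 := by
    intro h20
    have h1 := even_of_two hQ h20 (hD.decomp.nondegenerate 0)
    rw [hD.decomp.decomp.finrank_eq 0] at h1
    exact absurd h1 (by decide)
  by_cases hp : (Fintype.card F).Prime
  · iterate 6 right
    left
    exact ⟨⟨_, hp, odd_of_two_ne_zero h2, rfl⟩, D, hD, eq_dec hQ hH hD.decomp.decomp h⟩
  · obtain ⟨F₀, r, hr, hc⟩ := exists_subfield_prime_index hp
    obtain ⟨P, ζ, hζ, hR, hle⟩ := frame_le_subfield hQ hD F₀
    exact cP_sub hQ hH hr hc hζ hR (fun g hg => hle ⟨h hg, hI hg⟩)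

/-- planes of minus type -/
theorem cP_minus_planes (hQ : IsNondegenerateQuadraticForm Q) (hH : IsMaximalIn (omegaGL Q) H)
    {D : Fin 6 → Submodule F (Fin 12 → F)} (hD : IsOrthogonalMDecomposition Q 2 D)
    (hm : ∀ i, ¬ IsPlusTypeOn Q (D i)) (hq : Fintype.card F ≠ 3)
    (h : H ≤ decompositionStabilizer D) : ConclP Q H := by
  iterate 8 right
  left
  exact ⟨hq, D, hD, hm, eq_dec hQ hH hD.decomp.decomp h⟩

theorem two_zero_of_card_two (h : Fintype.card F = 2) : (2 : F) = 0 := by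
  have := FiniteField.cast_card_eq_zero F
  rw [h] at this
  exact_mod_cast this

theorem card_ne_six : Fintype.card F ≠ 6 := by
  intro h
  have h1 := FiniteField.isPrimePow_card F
  rw [h] at h1
  obtain ⟨p, k, hp, hk, hpk⟩ := h1
  have hp' : p.Prime := Nat.prime_iff.2 hp
  have hk3 : k < 3 := by
    by_contra hc
    have h2 : p ^ 3 ≤ p ^ k := Nat.pow_le_pow_right hp'.pos (by omega)
    have h3 : 2 ^ 3 ≤ p ^ 3 := Nat.pow_le_pow_left hp'.two_le 3
    omega
  have h6 : p ∣ 6 := by rw [← hpk]; exact dvd_pow_self p hk.ne'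
  have hp6 : p ≤ 6 := Nat.le_of_dvd (by norm_num) h6
  interval_cases k
  · rw [pow_one] at hpk
    rw [hpk] at hp'
    exact absurd hp' (by decide)
  · have : p < 3 := by
      by_contra hc
      have h3 : 3 ^ 2 ≤ p ^ 2 := Nat.pow_le_pow_left (by omega) 2
      omega
    interval_cases p <;> omega

/-- orthogonal decompositions -/
theorem cP_orth (hQ : IsNondegenerateQuadraticForm Q) (hplus : IsPlusTypeOn Q ⊤) (hH : IsMaximalIn (omegaGL Q) H)
    (hirr : ActsIrreducibly (matrixSet H)) {t m : ℕ} {D : Fin t → Submodule F (Fin 12 → F)} (htm : t * m = 12)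
    (hD : IsOrthogonalMDecomposition Q m D) (h : H ≤ decompositionStabilizer D) : ConclP Q H := by
  have hI : H ≤ isometryGroup F Q := hH.1.le.trans (H925.omegaGL_le_iso Q)
  have h2t := hD.decomp.decomp.two_le
  have hm0 := hD.decomp.decomp.pos
  have hm6 : m ≤ 6 := by
    by_contra hc
    have : 2 * 7 ≤ t * m := Nat.mul_le_mul h2t (by omega)
    omega
  have hH' : ∀ {s : ℕ} {D' : Fin s → Submodule F (Fin 12 → F)},
      decompositionStabilizer D ⊓ isometryGroup F Q ≤ decompositionStabilizer D' → H ≤ decompositionStabilizer D' :=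
    fun hle g hg => hle ⟨h hg, hI hg⟩
  interval_cases m
  · have : t = 12 := by omega
    subst this
    exact cP_frame hQ hH hD h
  · have : t = 6 := by omega
    subst this
    by_cases hp : IsPlusTypeOn Q (D 0)
    · have hall : ∀ i, IsPlusTypeOn Q (D i) := fun i => isPlusTypeOn_of_isometric (hD.isometric 0 i) hp
      by_cases h7 : 7 ≤ Fintype.card F
      · iterate 7 right
        left
        exact ⟨h7, D, hD, hall, eq_dec hQ hH hD.decomp.decomp h⟩
      · have h1 := Fintype.one_lt_card (α := F)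
        have h6 := card_ne_six (F := F)
        have hq : Fintype.card F = 2 ∨ Fintype.card F = 3 ∨ Fintype.card F = 4 ∨ Fintype.card F = 5 := by omega
        rcases hq with hq | hq | hq | hq
        · exact absurd hirr (not_irreducible_of_plus_two hq hQ hD hall hI h)
        · exact absurd hirr (not_irreducible_of_plus_three hq hQ hD hall hI h)
        · obtain ⟨F₀, r, hr, hc⟩ := exists_subfield_prime_index (F := F) (by rw [hq]; decide)
          obtain ⟨P, hR, hle⟩ := plus_planes_four hq hQ hD hall F₀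
          have hR' : IsQuadFormRationalStructure (fun v => (1 : F) * Q v) F₀ P := by
            have : (fun v => (1 : F) * Q v) = Q := by funext v; rw [one_mul]
            rw [this]; exact hR
          exact cP_sub hQ hH hr hc one_ne_zero hR' (fun g hg => hle ⟨h hg, hI hg⟩)
        · obtain ⟨D', hD', hle⟩ := plus_planes_five hq hQ hD hall
          exact cP_frame hQ hH hD' (hH' hle)
    · have hall : ∀ i, ¬ IsPlusTypeOn Q (D i) := fun i hi => hp (isPlusTypeOn_of_isometric (hD.isometric i 0) hi)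
      by_cases hq : Fintype.card F = 3
      · obtain ⟨D', hD', hle⟩ := Cfsg.Agent.H926.minus_planes_three hq hQ hD hall
        exact cP_frame hQ hH hD' (hH' hle)
      · exact cP_minus_planes hQ hH hD hall hq h
  · have : t = 4 := by omega
    subst this
    have h2 : (2 : F) ≠ 0 := by
      intro h20
      have h1 := even_of_two hQ h20 (hD.decomp.nondegenerate 0)
      rw [hD.decomp.decomp.finrank_eq 0] at h1
      exact absurd h1 (by decide)
    by_cases h5 : 5 ≤ Fintype.card F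
    · iterate 9 right
      left
      exact ⟨odd_of_two_ne_zero h2, h5, D, hD, eq_dec hQ hH hD.decomp.decomp h⟩
    · have hodd := odd_of_two_ne_zero h2
      have h1 := Fintype.one_lt_card (α := F)
      obtain ⟨k, hk⟩ := hodd
      have hq : Fintype.card F = 3 := by omega
      obtain ⟨D', hD', hle⟩ := three_spaces_le_frame hq hQ hD
      exact cP_frame hQ hH hD' (hH' hle)
  · have : t = 3 := by omega
    subst this
    by_cases h3 : 3 ≤ Fintype.card F
    · iterate 10 right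
      left
      exact ⟨h3, D, hD, eq_dec hQ hH hD.decomp.decomp h⟩
    · have h1 := Fintype.one_lt_card (α := F)
      have hq : Fintype.card F = 2 := by omega
      have hall : ∀ i, IsPlusTypeOn Q (D i) := fun i =>
        plus_part_of_plus hQ hplus (by decide) (by decide) hD i
      obtain ⟨D', hD', hm', hle⟩ := plus_fours_two hq hQ hD hall
      exact cP_minus_planes hQ hH hD' hm' (by rw [hq]; norm_num) (hH' hle)
  · omega
  · have : t = 2 := by omega
    subst this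
    exact cP_dec6 hQ hH hD h

/-- **Maximal subgroups of `Ω₁₂⁺(q)`.** -/
theorem plus_concl (hQ : IsNondegenerateQuadraticForm Q) (hplus : IsPlusTypeOn Q ⊤)
    (hH : IsMaximalIn (omegaGL Q) H) : ConclP Q H := by
  by_cases hirr : ActsIrreducibly (matrixSet H)
  swap
  · exact cP_red hQ hplus hH hirr
  rcases irr_cases hc12 hQ hH.1.le hirr with ⟨t, m, D, htm, hD, h⟩ | ⟨D, hD, hs, h⟩ | ⟨r, K, hr, hK, h⟩ |
    ⟨e, P, f₁, f₂, ε, hq, h1, h2, ha1, ha2, hT, hpure, h⟩ | ⟨e, P, f₁, f₂, hodd, h1, h2, hm, hT, h⟩ |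
    ⟨F₀, r, P, ζ, hr, hc, hζ, hR, h⟩ | h
  · exact cP_orth hQ hplus hH hirr htm hD h
  · iterate 12 right
    left
    exact ⟨D, hD, hs, eq_dec hQ hH hD h⟩
  · rcases hr with rfl | rfl
    · iterate 13 right
      left
      exact ⟨K, hK, eq_fld hQ hH le_rfl hK h⟩
    · iterate 14 right
      left
      exact ⟨K, hK, eq_fld hQ hH (by norm_num) hK h⟩
  · iterate 16 right
    left
    refine ⟨hq, e, P, f₁, f₂, isSymplecticForm_of_alt h1 ha1, isSymplecticForm_of_alt h2 ha2, hT, hpure, ?_⟩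
    exact eq_inf_of_isMaximalIn hH h (omegaGL_not_le_tensor_alt hQ (by rw [hc12]; norm_num) (by norm_num)
      (by norm_num) h1 h2 hT (fun v w => hpure v w))
  · exfalso
    apply hm
    obtain ⟨D, hD, hiff⟩ := exists_decomp_of_tensor hodd hQ (by norm_num) (by norm_num) (by decide) h2 h1
      (Cfsg.Agent.H912.isTensorFormStructure_swap hT)
    exact (hiff 0).1 (plus_part_of_plus hQ hplus (by decide) (by decide) hD 0)
  · exact cP_sub hQ hH hr hc hζ hR h
  · iterate 18 right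
    exact h

end

end Cfsg.Agent.H932
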